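import Cfsg.Agent.Char.PB

/-!
# Principal blocks for two primes
-/

namespace CF.Bq

open Cfsg CF.Char CF.BlockB Subgroup
open scoped ComplexConjugate

variable {p q : ℕ} {M M' : Ideal AlgInt} {G : Type*} [Group G] [Finite G]

/-- The principal block part of a class function at an element `x`, computed in the centralizer of
the `p`-part of `x`. -/
theorem part_eq [Fintype G] (hM : IsPModular p M) {f : G → ℂ} (hf : IsClassFunction G f) {u : G}
    (hu : ∃ k : ℕ, orderOf u = p ^ k) (h : centralizer ({u} : Set G)) (e : pPart p (h : G) = u) :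
    ∑ χ ∈ pb M G, classInner f (χ : G → ℂ) * (χ : G → ℂ) h =
      blockPart (principalBlock M (centralizer ({u} : Set G)))
        (fun k : centralizer ({u} : Set G) => f k) h := by
  classical
  have := Fintype.ofFinite (centralizer ({u} : Set G))
  have hP := isPGroup_zpowers_of_orderOf hu
  have hH := (CF.Block.centralizer_zpowers u).symm
  have e1 : (fun k : centralizer ({u} : Set G) => f k) = ∑ χ : IrrCharacter G,
      classInner f (χ : G → ℂ) • fun k : centralizer ({u} : Set G) => (χ : G → ℂ) k := by
    funext k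
    rw [classFun_apply_eq_sum hf]
    simp [Finset.sum_apply]
  have e2 : blockPart (principalBlock M (centralizer ({u} : Set G)))
      (fun k : centralizer ({u} : Set G) => f k) h = ∑ χ : IrrCharacter G,
      classInner f (χ : G → ℂ) * blockPart (principalBlock M (centralizer ({u} : Set G)))
        (fun k : centralizer ({u} : Set G) => (χ : G → ℂ) k) h := by
    rw [e1]
    simp only [blockPart_pb, Char.inner_sum_left, Char.inner_smul_left, Finset.sum_mul,
      Finset.mul_sum, mul_assoc]
    exact Finset.sum_comm
  rw [e2, ← Finset.sum_subset (Finset.subset_univ (pb M G)) fun χ _ hχ => by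
    rw [blockPart_pb_res_of_notMem hM hP hH h (by rw [e]) (fun k => hχ (mem_pb.2 k)), mul_zero]]
  exact Finset.sum_congr rfl fun χ hχ => by
    rw [blockPart_pb_res_of_mem hM hP hH h (by rw [e]) (mem_pb.1 hχ)]

/-- Integrality of the principal block part. -/
theorem v_part [Fintype G] (hM : IsPModular p M) {f : G → ℂ} (hf : IsClassFunction G f)
    (hi : ∀ g, v M' (f g) ≤ 1) {u : G} (hu : ∃ k : ℕ, orderOf u = p ^ k) :
    v M' (Nat.card (centralizer ({u} : Set G)) *
      ∑ χ ∈ pb M G, classInner f (χ : G → ℂ) * (χ : G → ℂ) u) ≤ 1 := by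
  have := Fintype.ofFinite (centralizer ({u} : Set G))
  have e := part_eq hM hf hu ⟨u, mem_centralizer_singleton_iff.2 rfl⟩ (pPart_of_pElement hM.1 hu)
  rw [e, blockPart_pb, Finset.mul_sum]
  refine v_sum_le_one fun ψ _ => ?_
  rw [← mul_assoc, card_mul_inner]
  refine v_mul_le_one (v_sum_le_one fun g _ => v_mul_le_one (hi _) ?_) (v_irr_le_one _ _)
  rw [← char_inv (irr_isCharacter ψ.2)]
  exact v_irr_le_one _ _

omit [Finite G] in
theorem inner_reg [Fintype G] (θ : G → ℂ) :
    classInner (pRegularPart q fun _ => 1) θ = conj (classInner (pRegularPart q θ) fun _ => 1) := by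
  rw [Char.inner_conj_symm, inner_def, inner_def]
  congr 1
  refine Finset.sum_congr rfl fun g _ => ?_
  rw [reg_apply, reg_apply]
  split_ifs <;> simp

omit [Finite G] in
theorem card_inner_reg [Fintype G] : Nat.card G * classInner (pRegularPart q fun _ : G => 1)
    (fun _ => 1) = (Nat.card {y : G // ¬ q ∣ orderOf y} : ℂ) := by
  classical
  rw [card_mul_inner, Nat.card_eq_fintype_card, Fintype.card_subtype, Finset.card_filter]
  push_cast
  refine Finset.sum_congr rfl fun g _ => ?_
  rw [reg_apply]
  split_ifs <;> simp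

/-- If the principal blocks meet trivially, every `p`-element centralizes a Sylow `q`-subgroup. -/
theorem not_dvd_index (hM : IsPModular p M) (hM' : IsPModular q M')
    (h : ∀ χ : IrrCharacter G, χ ∈ principalBlock M G → χ ∈ principalBlock M' G →
      (χ : G → ℂ) = fun _ => 1) {u : G} (hu : ∃ k : ℕ, orderOf u = p ^ k) :
    ¬ q ∣ (centralizer ({u} : Set G)).index := fun hd => by
  have := Fintype.ofFinite G
  have h1 := v_part (M' := M') hM (reg_classFun (p := q) (classFun_const 1))
    (fun g => by rw [reg_apply]; split_ifs <;> simp) hu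
  rw [Finset.sum_eq_single_of_mem _ (oneIrr_mem_pb hM) fun χ hχ h1 => by
    rw [inner_reg, not_not.1 (mt (mem_pb_iff_inner hM').2
      fun k => h1 (Subtype.ext (h χ (mem_pb.1 hχ) k))), map_zero, zero_mul], oneIrr_apply, mul_one,
    coe_oneIrr] at h1
  have h2 := (v_natCast_eq_one_iff hM' _).2 (not_dvd_card_pRegular hM'.1 G)
  rw [← card_inner_reg, ← (centralizer ({u} : Set G)).index_mul_card, Nat.cast_mul, mul_assoc,
    map_mul] at h2
  exact (mul_lt_one_of_lt_of_le ((v_natCast_lt_one_iff hM' _).2 hd) h1).ne h2

end CF.Bq
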